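-- Team project SUG (S2412): the generic chain and the case [GEN], unconditional (helper60).
import Cfsg.Agent.Lib.Helper60.SUG.GenDefs
import Cfsg.Agent.Lib.Helper27.SUG.StepU
import Cfsg.Agent.Lib.Helper75.SUG.Quot
import Cfsg.Agent.Lib.Helper25.SUG.Top
import Cfsg.Agent.Lib.Helper47.SUG.Fill
import Cfsg.Agent.Lib.Helper39.SUG.N3
import Cfsg.Agent.Lib.Helper5.SUG.SU42
import Cfsg.Agent.Lib.Helper74.SUG.GArith
import Cfsg.Agent.Lib.Helper74.SUG.GEx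
import Cfsg.Agent.Lib.Helper97.SUG.Cop3
import Cfsg.Agent.Lib.Helper97.SUG.GOrd
import Cfsg.Agent.Lib.Helper97.SUG.GCyc
import Cfsg.Agent.Lib.Helper8.SUG.GSpan
import Cfsg.Agent.Lib.Helper8.SUG.GShift
import Cfsg.Agent.Lib.Helper13.SUG.GTor
import Cfsg.Agent.Lib.Helper75.SUG.GComm1
import Cfsg.Agent.Lib.Helper41.SUG.GComm3

/-!
# S2412 (team project SUG): the landed packages put together

`chain` (generic induction), `pkgGen` (`n ≥ 4`, `q ≥ 3`), `pkgN4Q2` (`(n, q) = (4, 2)`), and the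
statement of S2412 from the one remaining case `PkgQ2` (`q = 2`, `n ≥ 5`).
-/

set_option autoImplicit false

namespace Cfsg.Agent.Lib.Helper60.SUG

universe u

/-- [CHAIN], unconditional. -/
theorem chain : Chain.{u} :=
  Cfsg.Agent.Lib.Helper75.SUG.pkgChain Cfsg.Agent.Lib.Helper27.SUG.pkgStep
    Cfsg.Agent.Lib.Helper25.SUG.pkgTop

/-- [N4Q2], unconditional (helper5). -/
theorem pkgN4Q2 : PkgN4Q2.{u} := fun {_} _ _ hF => Cfsg.Agent.Lib.Helper5.SUG.su42_two_gen hF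

/-- [GEN], unconditional. -/
theorem pkgGen : PkgGen.{u} :=
  pkgGen_of Cfsg.Agent.Lib.Helper47.SUG.pkgConj Cfsg.Agent.Lib.Helper47.SUG.pkgLine
    Cfsg.Agent.Lib.Helper47.SUG.pkgFill chain Cfsg.Agent.Lib.Helper74.SUG.pkgGArith
    Cfsg.Agent.Lib.Helper74.SUG.pkgGEx Cfsg.Agent.Lib.Helper97.SUG.pkgGOrd
    Cfsg.Agent.Lib.Helper8.SUG.pkgGVA Cfsg.Agent.Lib.Helper8.SUG.pkgGHerm
    Cfsg.Agent.Lib.Helper8.SUG.pkgGSpan Cfsg.Agent.Lib.Helper97.SUG.pkgGCyc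
    Cfsg.Agent.Lib.Helper8.SUG.pkgGShift Cfsg.Agent.Lib.Helper74.SUG.pkgGTrv
    Cfsg.Agent.Lib.Helper13.SUG.pkgGTor Cfsg.Agent.Lib.Helper75.SUG.pkgGDiag
    Cfsg.Agent.Lib.Helper75.SUG.pkgGComm1 Cfsg.Agent.Lib.Helper75.SUG.pkgGComm2
    Cfsg.Agent.Lib.Helper41.SUG.pkgGComm3 Cfsg.Agent.Lib.Helper75.SUG.pkgGDConj
    Cfsg.Agent.Lib.Helper97.SUG.pkgCop3

/-- The statement of S2412 from the one remaining case [Q2]. -/
theorem s2412_of_q2 (hQ2 : PkgQ2.{u})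
    {F : Type u} [Field F] [Fintype F] {q : ℕ} (hq : IsPrimePow q)
    (hF : Fintype.card F = q ^ 2) (n : ℕ) (hn : 3 ≤ n) (h32 : n = 3 → q ≠ 2) :
    ∃ a b : Cfsg.PSU n F q, Subgroup.closure ({a, b} : Set (Cfsg.PSU n F q)) = ⊤ :=
  s2412_of Cfsg.Agent.Lib.Helper75.SUG.pkgQuot pkgGen hQ2 pkgN4Q2
    Cfsg.Agent.Lib.Helper39.SUG.pkgN3 hq hF n hn h32

end Cfsg.Agent.Lib.Helper60.SUG
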