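-- Team project SUG (S2412): final assembly (helper60).
import Cfsg.Agent.Lib.Helper60.SUG.Gen
import Cfsg.Agent.Lib.Helper6.SUG.Q2Asm
import Cfsg.Agent.Lib.Helper6.SUG.Q2Small
import Cfsg.Agent.Lib.Helper6.SUG.Q2Pairs
import Cfsg.Agent.Lib.Helper15.SUG.Q2Field
import Cfsg.Agent.Lib.Helper59.SUG.Q2Gens
import Cfsg.Agent.Lib.Helper59.SUG.Q2Diag4
import Cfsg.Agent.Lib.Helper37.SUG.Q2E4
import Cfsg.Agent.Lib.Helper37.SUG.Q2Adj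

/-!
# S2412 (team project SUG): `PSU_n(q)` is generated by two elements

The case [Q2] (`q = 2`, `n ≥ 5`, helper6's block) and the final statement.
-/

set_option autoImplicit false

namespace Cfsg.Agent.Lib.Helper60.SUG

universe u

/-- [Q2], unconditional (helper6's block). -/
theorem pkgQ2 : PkgQ2.{u} :=
  Cfsg.Agent.Lib.Helper6.SUG.pkgQ2_of Cfsg.Agent.Lib.Helper15.SUG.pkgQ2Om
    Cfsg.Agent.Lib.Helper6.SUG.pkgQ2Tw Cfsg.Agent.Lib.Helper6.SUG.pkgQ2Cyc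
    Cfsg.Agent.Lib.Helper6.SUG.pkgQ2Diag Cfsg.Agent.Lib.Helper59.SUG.pkgQ2Gens
    (Cfsg.Agent.Lib.Helper6.SUG.pkgQ2Core_of chain Cfsg.Agent.Lib.Helper47.SUG.pkgConj
      Cfsg.Agent.Lib.Helper47.SUG.pkgLine Cfsg.Agent.Lib.Helper15.SUG.pkgQ2Rot
      Cfsg.Agent.Lib.Helper6.SUG.pkgQ2Pairs Cfsg.Agent.Lib.Helper59.SUG.pkgQ2Diag4
      Cfsg.Agent.Lib.Helper6.SUG.pkgQ2CtrW Cfsg.Agent.Lib.Helper6.SUG.pkgQ2W4
      Cfsg.Agent.Lib.Helper37.SUG.pkgQ2E4 Cfsg.Agent.Lib.Helper37.SUG.pkgQ2Adj)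

/-- S2412: `PSU_n(q)`, `n ≥ 3`, `(n, q) ≠ (3, 2)`, is generated by two elements. -/
theorem s2412 {F : Type u} [Field F] [Fintype F] {q : ℕ} (hq : IsPrimePow q)
    (hF : Fintype.card F = q ^ 2) (n : ℕ) (hn : 3 ≤ n) (h32 : n = 3 → q ≠ 2) :
    ∃ a b : Cfsg.PSU n F q, Subgroup.closure ({a, b} : Set (Cfsg.PSU n F q)) = ⊤ :=
  s2412_of_q2 pkgQ2 hq hF n hn h32

end Cfsg.Agent.Lib.Helper60.SUG
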